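/-
Piece P5 of helper61's farm for S4125 (by helper8).
-/
import Cfsg.Agent.Lib.Helper86.QB.P0
import Cfsg.Agent.Lib.Helper86.QB.P2
import Cfsg.Agent.Lib.Helper86.QB.P4
import Cfsg.Agent.Lib.Helper88.QB.P3

set_option autoImplicit false

namespace Cfsg.Agent.Lib.Helper8.QB

open Cfsg.Agent.Lib.Helper61.QB Cfsg.Agent.Lib.Helper86.QB Cfsg.Agent.Lib.Helper88.QB

universe u

variable {G : Type u} [Group G] [Finite G] {q : ℕ} [Fact q.Prime]

omit [Finite G] in
theorem idx_conj_P5 (g y : G) : idx (g * y * g⁻¹) = idx y := by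
  have h : (Subgroup.centralizer ({y} : Set G)).map (MulAut.conj g).toMonoidHom =
      Subgroup.centralizer ({g * y * g⁻¹} : Set G) := by
    ext z
    rw [Subgroup.mem_map, Subgroup.mem_centralizer_singleton_iff]
    constructor
    · rintro ⟨w, hw, rfl⟩
      rw [Subgroup.mem_centralizer_singleton_iff] at hw
      change g * w * g⁻¹ * (g * y * g⁻¹) = g * y * g⁻¹ * (g * w * g⁻¹)
      calc g * w * g⁻¹ * (g * y * g⁻¹) = g * (w * y) * g⁻¹ := by group
        _ = g * (y * w) * g⁻¹ := by rw [hw]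
        _ = _ := by group
    · intro hz
      refine ⟨g⁻¹ * z * g, ?_, ?_⟩
      · rw [Subgroup.mem_centralizer_singleton_iff]
        calc g⁻¹ * z * g * y = g⁻¹ * (z * (g * y * g⁻¹)) * g := by group
          _ = g⁻¹ * ((g * y * g⁻¹) * z) * g := by rw [hz]
          _ = _ := by group
      · change g * (g⁻¹ * z * g) * g⁻¹ = z
        group
  unfold idx
  rw [← h]
  exact Subgroup.index_map_equiv _ (MulAut.conj g)

/-- [P5] -/
theorem pair_false (hB : Baer q G) (x y : G) (hx : IsQ q x) (hy : IsQ q y) {r s a b : ℕ}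
    (hr : r.Prime) (hs : s.Prime) (hrs : r ≠ s) (hrq : r ≠ q) (hsq : s ≠ q)
    (hxi : idx x = r ^ a) (hyi : idx y = s ^ b) (ha : a ≠ 0) (hb : b ≠ 0) : False := by
  have hq : q.Prime := Fact.out
  have hcq : (idx x).Coprime q := by
    rw [hxi]
    exact Nat.Coprime.pow_left a ((Nat.coprime_primes hr hq).2 hrq)
  obtain ⟨g, hg⟩ := exists_conj_commute (q := q) x y hcq hy
  set y' := g * y * g⁻¹ with hy'
  have hy'q : IsQ q y' := by
    obtain ⟨k, hk⟩ := hy
    refine ⟨k, ?_⟩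
    rw [← hk]
    exact orderOf_injective (MulAut.conj g).toMonoidHom (MulAut.conj g).injective y
  have hy'i : idx y' = s ^ b := by rw [hy', idx_conj_P5, hyi]
  have hcop : (idx x).Coprime (idx y') := by
    rw [hxi, hy'i]
    exact Nat.Coprime.pow a b ((Nat.coprime_primes hr hs).2 hrs)
  have huq : IsQ q (x * y') := by
    obtain ⟨k1, hk1⟩ := hx
    obtain ⟨k2, hk2⟩ := hy'q
    have h1 := hg.orderOf_mul_dvd_lcm
    rw [hk1, hk2] at h1
    have h2 : Nat.lcm (q ^ k1) (q ^ k2) ∣ q ^ (max k1 k2) :=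
      Nat.lcm_dvd (pow_dvd_pow q (le_max_left _ _)) (pow_dvd_pow q (le_max_right _ _))
    obtain ⟨k, -, hk⟩ := (Nat.dvd_prime_pow hq).1 (h1.trans h2)
    exact ⟨k, hk⟩
  obtain ⟨t, c, ht, hu⟩ := hB _ huq
  rcases index_mul_eq x y' hr hs ht hrs hxi hy'i hu with h | h
  · -- `idx u = idx x`
    have h' : idx (y' * x) = idx x := by rw [← hg.eq]; exact h
    have hD := card_diffSub_dvd y' x hg.symm hcop.symm h'
    rw [hxi] at hD
    have h1 := central_of_diffSub (q := q) y' hy'q hs hr hrs hrq hy'i hD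
    rw [hy'i] at h1
    exact hb ((Nat.pow_eq_one.1 h1).resolve_left hs.ne_one)
  · have hD := card_diffSub_dvd x y' hg hcop h
    rw [hy'i] at hD
    have h1 := central_of_diffSub (q := q) x hx hr hs hrs.symm hsq hxi hD
    rw [hxi] at h1
    exact ha ((Nat.pow_eq_one.1 h1).resolve_left hr.ne_one)

end Cfsg.Agent.Lib.Helper8.QB
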