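/-
Piece S3b of helper61's farm for S4125 (by helper8).
-/
import Cfsg.Agent.Lib.Helper61.QB.Defs
import Cfsg.Agent.Lib.Helper61.QB.DefsG

set_option autoImplicit false

namespace Cfsg.Agent.Lib.Helper8.QB

open Cfsg.Agent.Lib.Helper61.QB

universe u

variable {G : Type u} [Group G] [Finite G] {q : ℕ} [Fact q.Prime]

/-- [S3b] -/
theorem good_range_of_linearization {p : ℕ} {M : Type u} [AddCommGroup M] [Module (ZMod q) M]
    [Finite M] (Ω : Subgroup G) [Ω.Normal] (e : Ω ≃ M) (φ : G →* (M ≃ₗ[ZMod q] M))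
    (hφ : ∀ (g : G) (x y : Ω), (y : G) = g * x * g⁻¹ → φ g (e x) = e y)
    (hc : (Nat.card φ.range).Coprime q) (hidx : ∀ x ∈ Ω, ∃ a : ℕ, idx x = p ^ a) :
    Good q p φ.range := by
  refine ⟨hc, fun v => ?_⟩
  obtain ⟨x, rfl⟩ := e.surjective v
  obtain ⟨a, ha⟩ := hidx x.1 x.2
  refine ⟨a, ?_⟩
  rw [← ha, ← Subgroup.index_comap_of_surjective _ φ.rangeRestrict_surjective]
  congr 1
  ext g
  rw [Subgroup.mem_comap, MulAction.mem_stabilizer_iff, Subgroup.mem_centralizer_singleton_iff]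
  have h1 : φ.rangeRestrict g • e x = φ g (e x) := rfl
  have hn : g * x.1 * g⁻¹ ∈ Ω := ‹Ω.Normal›.conj_mem x.1 x.2 g
  rw [h1, hφ g x ⟨g * x.1 * g⁻¹, hn⟩ rfl, e.apply_eq_iff_eq, Subtype.ext_iff]
  change g * x.1 * g⁻¹ = x.1 ↔ _
  rw [mul_inv_eq_iff_eq_mul]

end Cfsg.Agent.Lib.Helper8.QB
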