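/-
Piece S2 of helper61's farm for S4125 (by helper8).
-/
import Cfsg.Agent.Lib.Helper54.QB.S1
import Cfsg.Agent.Lib.Helper54.QB.S2a

set_option autoImplicit false

namespace Cfsg.Agent.Lib.Helper8.QB

open Cfsg.Agent.Lib.Helper61.QB Cfsg.Agent.Lib.Helper54.QB

universe u

variable {G : Type u} [Group G] [Finite G] {q : ℕ} [Fact q.Prime]

/-- [S2] -/
theorem mem_of_commute_omega (V : Subgroup G) [V.Normal]
    (hab : ∀ x ∈ V, ∀ y ∈ V, x * y = y * x) (hV : IsPGroup q V) (hi : V.index.Coprime q)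
    (hcf : ∀ N : Subgroup G, N.Normal → (Nat.card N).Coprime q → N = ⊥) (g : G)
    (hΩ : ∀ v ∈ V, v ^ q = 1 → g * v = v * g) : g ∈ V := by
  have hq : q.Prime := Fact.out
  have hn : orderOf g ≠ 0 := (orderOf_pos g).ne'
  obtain ⟨j, m, hm, hjm⟩ := Nat.exists_eq_pow_mul_and_not_dvd hn q hq.ne_one
  have hcop : Nat.Coprime (q ^ j) m := Nat.Coprime.pow_left j ((Nat.Prime.coprime_iff_not_dvd hq).2 hm)
  have hb := Int.gcd_eq_gcd_ab (q ^ j : ℕ) m
  have hg1 : Int.gcd ((q ^ j : ℕ) : ℤ) (m : ℤ) = 1 := by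
    rw [Int.gcd_natCast_natCast]; exact hcop
  rw [hg1] at hb
  set α := Int.gcdA (q ^ j : ℕ) m
  set β := Int.gcdB (q ^ j : ℕ) m
  have hsplit : g = g ^ ((m : ℤ) * β) * g ^ (((q ^ j : ℕ) : ℤ) * α) := by
    rw [← zpow_add, add_comm, ← hb]; simp
  have hgn : g ^ (((q ^ j : ℕ) : ℤ) * (m : ℤ)) = 1 := by
    rw [← Nat.cast_mul, zpow_natCast, ← hjm, pow_orderOf_eq_one]
  -- the `q`-part
  have h1 : g ^ ((m : ℤ) * β) ∈ V := by
    rw [← QuotientGroup.eq_one_iff]
    set y : G ⧸ V := ((g ^ ((m : ℤ) * β) : G) : G ⧸ V) with hy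
    have e1 : y ^ (q ^ j) = 1 := by
      rw [hy, ← QuotientGroup.mk_pow, ← zpow_natCast, ← zpow_mul,
        show (m : ℤ) * β * ((q ^ j : ℕ) : ℤ) = (((q ^ j : ℕ) : ℤ) * (m : ℤ)) * β by ring,
        zpow_mul, hgn, one_zpow]
      rfl
    have e2 : y ^ V.index = 1 := by
      rw [Subgroup.index_eq_card]; exact pow_card_eq_one'
    have d1 := orderOf_dvd_of_pow_eq_one e1
    have d2 := orderOf_dvd_of_pow_eq_one e2
    have hc : Nat.Coprime (q ^ j) V.index := Nat.Coprime.pow_left j hi.symm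
    have := Nat.eq_one_of_dvd_coprimes hc d1 d2
    exact orderOf_eq_one_iff.1 this
  -- the `q'`-part
  have h2 : g ^ (((q ^ j : ℕ) : ℤ) * α) ∈ V := by
    apply centralizer_le_of_core_free (q := q) V hab hV hi hcf
    rw [Subgroup.mem_centralizer_iff]
    intro v hv
    symm
    refine commute_of_commute_omega (q := q) V hab hV _ ?_ ?_ v hv
    · have e1 : (g ^ (((q ^ j : ℕ) : ℤ) * α)) ^ m = 1 := by
        rw [← zpow_natCast, ← zpow_mul,
          show ((q ^ j : ℕ) : ℤ) * α * (m : ℤ) = (((q ^ j : ℕ) : ℤ) * (m : ℤ)) * α by ring,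
          zpow_mul, hgn, one_zpow]
      have d1 := orderOf_dvd_of_pow_eq_one e1
      exact Nat.Coprime.coprime_dvd_left d1 ((Nat.Prime.coprime_iff_not_dvd hq).2 hm).symm
    · intro w hw hwq
      have : Commute g w := hΩ w hw hwq
      exact this.zpow_left _
  rw [hsplit]
  exact V.mul_mem h1 h2

end Cfsg.Agent.Lib.Helper8.QB
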